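import Cfsg.Agent.Lib.TCX.RM11f.D0

set_option autoImplicit false
set_option maxRecDepth 100000
set_option Elab.async false

namespace Cfsg.Agent.TCX.RM11f

noncomputable def l0r0 : Bt Ru := (.node (.node (.node (.leaf ⟨[2,0,2],4,0⟩) (.leaf ⟨[3,1,0,1,0,1],10,6⟩)) (.node (.leaf ⟨[3,0,3],9,0⟩) (.leaf ⟨[0],5,0⟩))) (.node (.node (.leaf ⟨[0],5,0⟩) (.leaf ⟨[0],5,0⟩)) (.node (.leaf ⟨[1,0,1,3,0,1],8,2⟩) (.leaf ⟨[0],5,0⟩))))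
noncomputable def l0r1 : Bt Ru := (.node (.node (.node (.leaf ⟨[1],0,0⟩) (.leaf ⟨[0,1,3,0,1,0],8,3⟩)) (.node (.leaf ⟨[0,1,0,1,3,0],8,1⟩) (.leaf ⟨[1],0,0⟩))) (.node (.node (.leaf ⟨[3,1,3],2,0⟩) (.leaf ⟨[1],0,0⟩)) (.node (.leaf ⟨[2,1,2,1,2],6,0⟩) (.leaf ⟨[1],0,0⟩))))
noncomputable def l0r2 : Bt Ru := (.node (.node (.leaf ⟨[2],3,0⟩) (.leaf ⟨[0,2,0],4,3⟩)) (.node (.leaf ⟨[1,2,1,2,1],6,5⟩) (.leaf ⟨[3,2,3,2,3],7,0⟩)))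
noncomputable def l0r3 : Bt Ru := (.node (.node (.leaf ⟨[3],1,0⟩) (.leaf ⟨[0,3,0],9,3⟩)) (.node (.leaf ⟨[2,3,2,3,2],7,5⟩) (.leaf ⟨[1,3,1],2,3⟩)))
noncomputable def l0r4 : Bt Ru := (.node (.leaf ⟨[0,1,0,1,0,3,1],10,2⟩) (.leaf ⟨[0,1,3,0,1,0,1],8,4⟩))
noncomputable def l0T : List (Bt Nat) := [l0t0, l0t1, l0t2, l0t3, l0t4, l0t5]
noncomputable def l0R : List (Bt Ru) := [l0r0, l0r1, l0r2, l0r3, l0r4]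
noncomputable def l0c (a lo cnt : Nat) : Nat := chk (gT l0T (nat_lit 14)) (rT l0R) (nat_lit 14) (nat_lit 0x7fc0) (nat_lit 0x4000) (nat_lit 0x3fc0) (nat_lit 4) (nat_lit 15) (nat_lit 511) (nat_lit 0x8000000000ffffff) (nat_lit 7) (nat_lit 12) (nat_lit 0) (nat_lit 0x4000) a (nfOf [] 0 a) lo cnt
noncomputable def l0f (a : Nat) : Nat := l0c a 0 1
noncomputable def l0m (lo cnt : Nat) : Nat := chkM (gT l0T (nat_lit 14)) (nat_lit 14) (nat_lit 0x7fc0) (nat_lit 0x4000) (nat_lit 0x3fc0) (nat_lit 4) lo cnt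

end Cfsg.Agent.TCX.RM11f
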